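import Mathlib
import Cfsg.Agent.S3752
import Cfsg.Agent.Lib.Helper47.Subn
import Cfsg.Agent.Lib.Helper21.Comp

set_option autoImplicit false

/-!
Thompson–Wielandt for a pair of distinct maximal subgroups `A`, `B` with trivial cores:
with `D = A ⊓ B`, `KA = core_A(D)`, `KB = core_B(D)`, `X = KA ⊓ KB`, `S = core_A(X)`, `S' = core_B(X)`:
if `S ≠ ⊥` and `S' ≠ ⊥` then `S` is a `p`-group for a prime `p` and `F*(A) = O_p(A)`.
-/

namespace Cfsg.Agent.Lib.Helper11.TW

open Cfsg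

universe u

variable {G : Type u} [Group G]

/-- The elements all of whose `A`-conjugates lie in `D`. -/
def relCore (A D : Subgroup G) : Subgroup G where
  carrier := {x | ∀ h ∈ A, h * x * h⁻¹ ∈ D}
  one_mem' := by
    intro h _
    simp
  mul_mem' := by
    intro x y hx hy h hh
    have e : h * (x * y) * h⁻¹ = (h * x * h⁻¹) * (h * y * h⁻¹) := by group
    rw [e]
    exact D.mul_mem (hx h hh) (hy h hh)
  inv_mem' := by
    intro x hx h hh
    have e : h * x⁻¹ * h⁻¹ = (h * x * h⁻¹)⁻¹ := by group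
    rw [e]
    exact D.inv_mem (hx h hh)

theorem mem_relCore {A D : Subgroup G} {x : G} :
    x ∈ relCore A D ↔ ∀ h ∈ A, h * x * h⁻¹ ∈ D := Iff.rfl

theorem relCore_le (A D : Subgroup G) : relCore A D ≤ D := by
  intro x hx
  have := hx 1 A.one_mem
  simpa using this

theorem normNorm {S N : Subgroup G}
    (h : ∀ g ∈ S, ∀ n ∈ N, g * n * g⁻¹ ∈ N) : S ≤ Subgroup.normalizer (N : Set G) := by
  intro g hg
  rw [Subgroup.mem_normalizer_iff]
  intro n
  constructor
  · exact h g hg n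
  · intro hn
    have h1 := h g⁻¹ (S.inv_mem hg) _ hn
    have e : g⁻¹ * (g * n * g⁻¹) * g⁻¹⁻¹ = n := by group
    rwa [e] at h1

theorem conjMem {S N : Subgroup G} (h : S ≤ Subgroup.normalizer (N : Set G)) {g n : G}
    (hg : g ∈ S) (hn : n ∈ N) : g * n * g⁻¹ ∈ N :=
  (Subgroup.mem_normalizer_iff.mp (h hg) n).mp hn

theorem le_normalizer_relCore (A D : Subgroup G) :
    A ≤ Subgroup.normalizer (relCore A D : Set G) := by
  apply normNorm
  intro a ha x hx h hh
  have e : h * (a * x * a⁻¹) * h⁻¹ = (h * a) * x * (h * a)⁻¹ := by group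
  rw [e]
  exact hx (h * a) (A.mul_mem hh ha)

theorem le_relCore {A D N : Subgroup G} (hND : N ≤ D)
    (hn : A ≤ Subgroup.normalizer (N : Set G)) : N ≤ relCore A D := by
  intro x hx h hh
  exact hND (conjMem hn hh hx)

/-- relative subnormality from normality -/
theorem relSn_of_normal {M H : Subgroup G} (hMH : M ≤ H)
    (hn : H ≤ Subgroup.normalizer (M : Set G)) : (M.subgroupOf H).IsSubnormal :=
  Subgroup.Normal.isSubnormal ((Subgroup.normal_subgroupOf_iff_le_normalizer hMH).mpr hn)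

/-- `M ⊴ K ⊴ H` gives relative subnormality. -/
theorem relSn_of_normal_normal {M K H : Subgroup G} (hMK : M ≤ K) (hKH : K ≤ H)
    (h1 : K ≤ Subgroup.normalizer (M : Set G)) (h2 : H ≤ Subgroup.normalizer (K : Set G)) :
    (M.subgroupOf H).IsSubnormal :=
  Cfsg.Agent.S3752.relSn_trans hMK hKH (relSn_of_normal hMK h1) (relSn_of_normal hKH h2)

/-- The configuration: two distinct maximal subgroups with trivial cores. -/
structure Cfg (A B : Subgroup G) : Prop where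
  coA : IsCoatom A
  coB : IsCoatom B
  ne : A ≠ B
  coreA : ∀ N : Subgroup G, N.Normal → N ≤ A → N = ⊥
  coreB : ∀ N : Subgroup G, N.Normal → N ≤ B → N = ⊥

theorem Cfg.symm {A B : Subgroup G} (h : Cfg A B) : Cfg B A :=
  ⟨h.coB, h.coA, h.ne.symm, h.coreB, h.coreA⟩

theorem Cfg.normalizer_eq {A B : Subgroup G} (h : Cfg A B) {M : Subgroup G} (hMA : M ≤ A)
    (hM : M ≠ ⊥) (hn : A ≤ Subgroup.normalizer (M : Set G)) :
    Subgroup.normalizer (M : Set G) = A := by
  by_contra hne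
  have hlt : A < Subgroup.normalizer (M : Set G) := lt_of_le_of_ne hn (Ne.symm hne)
  have htop := h.coA.2 _ hlt
  have hMn : M.Normal := Subgroup.normalizer_eq_top_iff.mp htop
  exact hM (h.coreA M hMn hMA)

theorem Cfg.not_le {A B : Subgroup G} (h : Cfg A B) : ¬ B ≤ A := by
  intro hle
  rcases eq_or_lt_of_le hle with h1 | h1
  · exact h.ne h1.symm
  · exact h.coA.1 (h.coB.2 _ h1)

/-! ### the subgroups -/

/-- `core_A(A ⊓ B)` -/
def KK (A B : Subgroup G) : Subgroup G := relCore A (A ⊓ B)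

/-- `core_A(core_A(A ⊓ B) ⊓ core_B(A ⊓ B))` -/
def SS (A B : Subgroup G) : Subgroup G := relCore A (KK A B ⊓ KK B A)

theorem KK_le_left (A B : Subgroup G) : KK A B ≤ A := (relCore_le _ _).trans inf_le_left
theorem KK_le_right (A B : Subgroup G) : KK A B ≤ B := (relCore_le _ _).trans inf_le_right
theorem KK_norm (A B : Subgroup G) : A ≤ Subgroup.normalizer (KK A B : Set G) :=
  le_normalizer_relCore _ _
theorem SS_le_KK (A B : Subgroup G) : SS A B ≤ KK A B := (relCore_le _ _).trans inf_le_left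
theorem SS_le_KK' (A B : Subgroup G) : SS A B ≤ KK B A := (relCore_le _ _).trans inf_le_right
theorem SS_le_left (A B : Subgroup G) : SS A B ≤ A := (SS_le_KK A B).trans (KK_le_left A B)
theorem SS_le_right (A B : Subgroup G) : SS A B ≤ B := (SS_le_KK A B).trans (KK_le_right A B)
theorem SS_norm (A B : Subgroup G) : A ≤ Subgroup.normalizer (SS A B : Set G) :=
  le_normalizer_relCore _ _

theorem SS_relSn (A B : Subgroup G) : ((SS A B).subgroupOf B).IsSubnormal :=
  relSn_of_normal_normal (SS_le_KK' A B) (KK_le_left B A)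
    ((KK_le_right B A).trans (SS_norm A B)) (KK_norm B A)

/-! ### relative versions of the two normalizer lemmas -/

theorem relA [Finite G] {p : ℕ} [Fact p.Prime] {S H : Subgroup G} (hSH : S ≤ H)
    (hsn : (S.subgroupOf H).IsSubnormal) :
    Cfsg.pCoreOf p H ≤
      Subgroup.normalizer (((Cfsg.pResidual p ↥S).map S.subtype : Subgroup G) : Set G) := by
  have h1 := Cfsg.Agent.Lib.Helper47.pCore_le_normalizer_pResidual_map (p := p) hsn
  have e : ((Cfsg.pResidual p ↥(S.subgroupOf H)).map (S.subgroupOf H).subtype).map H.subtype =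
      (Cfsg.pResidual p ↥S).map S.subtype := by
    rw [Cfsg.Agent.Lib.Helper47.pResidual_map_subtype_eq,
      Cfsg.Agent.Lib.Helper47.pResidual_map_subtype_eq, MonoidHom.map_closure]
    congr 1
    ext y
    constructor
    · rintro ⟨x, ⟨hx1, hx2⟩, rfl⟩
      refine ⟨Subgroup.mem_subgroupOf.mp hx1, ?_⟩
      have : orderOf ((H.subtype x : G)) = orderOf x := Subgroup.orderOf_coe x
      rw [this]
      exact hx2
    · rintro ⟨hy1, hy2⟩
      refine ⟨⟨y, hSH hy1⟩, ⟨Subgroup.mem_subgroupOf.mpr hy1, ?_⟩, rfl⟩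
      have : orderOf ((⟨y, hSH hy1⟩ : ↥H)) = orderOf y := (Subgroup.orderOf_coe _).symm
      rw [this]
      exact hy2
  unfold Cfsg.pCoreOf
  rw [← e]
  exact (Subgroup.map_mono h1).trans (Subgroup.le_normalizer_map _)

theorem relB [Finite G] {M S H : Subgroup G} (hMH : M ≤ H) (hSH : S ≤ H)
    (hM : Cfsg.IsComponent (M.subgroupOf H)) (hS : (S.subgroupOf H).IsSubnormal) :
    M ≤ Subgroup.normalizer (S : Set G) := by
  rcases Cfsg.Agent.Lib.Helper21.component_le_or_commutator_eq_bot hM hS with h | h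
  · have hMS : M ≤ S := by
      intro x hx
      have := h (show (⟨x, hMH hx⟩ : ↥H) ∈ M.subgroupOf H from Subgroup.mem_subgroupOf.mpr hx)
      exact Subgroup.mem_subgroupOf.mp this
    exact hMS.trans Subgroup.le_normalizer
  · apply normNorm
    intro m hm s hs
    have := Cfsg.Agent.Lib.Helper22.comm_of_commutator_eq_bot h ⟨m, hMH hm⟩
      (Subgroup.mem_subgroupOf.mpr hm) ⟨s, hSH hs⟩ (Subgroup.mem_subgroupOf.mpr hs)
    have hc : m * s = s * m := congrArg Subtype.val this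
    have e : m * s * m⁻¹ = s := by rw [hc]; group
    rw [e]
    exact hs

theorem le_pCoreOf_of_relSn [Finite G] {p : ℕ} [Fact p.Prime] {Q H : Subgroup G} (hQH : Q ≤ H)
    (hsn : (Q.subgroupOf H).IsSubnormal) (hQ : IsPGroup p Q) : Q ≤ Cfsg.pCoreOf p H := by
  have h1 := Cfsg.Agent.Lib.Helper47.le_pCore_of_isSubnormal_of_isPGroup hsn
    (hQ.comap_of_injective H.subtype H.subtype_injective)
  have h2 := Subgroup.map_mono (f := H.subtype) h1
  rwa [Subgroup.map_subgroupOf_eq_of_le hQH] at h2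

theorem pCoreOf_le (p : ℕ) (H : Subgroup G) : Cfsg.pCoreOf p H ≤ H :=
  Subgroup.map_subtype_le _

theorem pCoreOf_norm (p : ℕ) (H : Subgroup G) :
    H ≤ Subgroup.normalizer (Cfsg.pCoreOf p H : Set G) := by
  haveI : (Cfsg.pCore p ↥H).Normal := Subgroup.sSup_normal _ (fun _ h => h.1)
  exact Cfsg.Agent.S3752.le_normalizer_map_subtype H (Cfsg.pCore p ↥H)

theorem pCoreOf_isPGroup (p : ℕ) (H : Subgroup G) : IsPGroup p (Cfsg.pCoreOf p H) :=
  (Cfsg.Agent.S3752.pCore_isPGroup p ↥H).map _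

theorem isPGroup_of_pResidual_eq_bot [Finite G] {p : ℕ} [Fact p.Prime] {S : Subgroup G}
    (h : (Cfsg.pResidual p ↥S).map S.subtype = ⊥) : IsPGroup p S := by
  rw [Cfsg.Agent.Lib.Helper47.pResidual_map_subtype_eq] at h
  intro g
  have hn : orderOf (g : G) ≠ 0 := (orderOf_pos (g : G)).ne'
  obtain ⟨k, m, hm, hkm⟩ := Nat.exists_eq_pow_mul_and_not_dvd hn p (Fact.out : p.Prime).ne_one
  refine ⟨k, ?_⟩
  have hdvd : p ^ k ∣ orderOf (g : G) := ⟨m, hkm⟩
  have hord : orderOf ((g : G) ^ (p ^ k)) = m := by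
    rw [orderOf_pow_of_dvd (pow_ne_zero k (Fact.out : p.Prime).ne_zero) hdvd, hkm]
    exact Nat.mul_div_cancel_left m (pow_pos (Fact.out : p.Prime).pos k)
  have hcop : (orderOf ((g : G) ^ (p ^ k))).Coprime p := by
    rw [hord]
    exact (Nat.Prime.coprime_iff_not_dvd (Fact.out : p.Prime)).mpr hm |>.symm
  have hmem : (g : G) ^ (p ^ k) ∈ Subgroup.closure {x : G | x ∈ S ∧ (orderOf x).Coprime p} :=
    Subgroup.subset_closure ⟨S.pow_mem g.2 _, hcop⟩
  rw [h, Subgroup.mem_bot] at hmem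
  apply Subtype.ext
  simpa using hmem

/-! ### Step 3: the prime part -/

theorem step3 [Finite G] {A B : Subgroup G} (h : Cfg A B) {p : ℕ} [Fact p.Prime]
    (hY : Cfsg.pCoreOf p A ≠ ⊥)
    (hcard : Nat.card (Cfsg.pCoreOf p A) = Nat.card (Cfsg.pCoreOf p B)) :
    IsPGroup p (SS A B) := by
  by_contra hnp
  have hN : (Cfsg.pResidual p ↥(SS A B)).map (SS A B).subtype ≠ ⊥ :=
    fun h0 => hnp (isPGroup_of_pResidual_eq_bot h0)
  have hNS : (Cfsg.pResidual p ↥(SS A B)).map (SS A B).subtype ≤ SS A B :=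
    Cfsg.Agent.Lib.Helper47.pResidual_map_subtype_le p (SS A B)
  have hNA : (Cfsg.pResidual p ↥(SS A B)).map (SS A B).subtype ≤ A := hNS.trans (SS_le_left A B)
  have hAN : A ≤ Subgroup.normalizer
      (((Cfsg.pResidual p ↥(SS A B)).map (SS A B).subtype : Subgroup G) : Set G) :=
    (SS_norm A B).trans
      (Cfsg.Agent.Lib.Helper47.normalizer_le_normalizer_pResidual_map p (SS A B))
  have hNn := h.normalizer_eq hNA hN hAN
  have hYAp : IsPGroup p (Cfsg.pCoreOf p A) := pCoreOf_isPGroup p A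
  have hYBp : IsPGroup p (Cfsg.pCoreOf p B) := pCoreOf_isPGroup p B
  have hYAA : Cfsg.pCoreOf p A ≤ A := pCoreOf_le p A
  have hYBB : Cfsg.pCoreOf p B ≤ B := pCoreOf_le p B
  have hAYA : A ≤ Subgroup.normalizer (Cfsg.pCoreOf p A : Set G) := pCoreOf_norm p A
  have hBYB : B ≤ Subgroup.normalizer (Cfsg.pCoreOf p B : Set G) := pCoreOf_norm p B
  -- (i)
  have hYBA : Cfsg.pCoreOf p B ≤ A := by
    have h1 := relA (p := p) (SS_le_right A B) (SS_relSn A B)
    rwa [hNn] at h1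
  have hYBne : Cfsg.pCoreOf p B ≠ ⊥ := by
    intro h0
    apply hY
    apply Subgroup.eq_bot_of_card_eq
    rw [hcard, h0]
    exact Subgroup.card_bot
  have hYBn := h.symm.normalizer_eq hYBB hYBne hBYB
  -- (ii)
  have hii : Cfsg.pCoreOf p A ⊓ B ≤ Cfsg.pCoreOf p B := by
    have hKB : Cfsg.pCoreOf p A ⊓ B ≤ KK B A := by
      intro y hy k hk
      have hQp : IsPGroup p ((Cfsg.pCoreOf p A ⊓ B).map (MulAut.conj k).toMonoidHom) :=
        (hYAp.to_le inf_le_left).map _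
      have hQB : (Cfsg.pCoreOf p A ⊓ B).map (MulAut.conj k).toMonoidHom ≤ B := by
        rintro _ ⟨z, hz, rfl⟩
        show k * z * k⁻¹ ∈ B
        exact B.mul_mem (B.mul_mem hk hz.2) (B.inv_mem hk)
      have hSQ : SS A B ≤ Subgroup.normalizer
          (((Cfsg.pCoreOf p A ⊓ B).map (MulAut.conj k).toMonoidHom : Subgroup G) : Set G) := by
        apply normNorm
        rintro s hs _ ⟨z, hz, rfl⟩
        have ht : k⁻¹ * s * k⁻¹⁻¹ ∈ KK B A :=
          conjMem (KK_norm B A) (B.inv_mem hk) (SS_le_KK' A B hs)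
        have htA : k⁻¹ * s * k⁻¹⁻¹ ∈ A := KK_le_right B A ht
        have htB : k⁻¹ * s * k⁻¹⁻¹ ∈ B := KK_le_left B A ht
        have hz' : (k⁻¹ * s * k⁻¹⁻¹) * z * (k⁻¹ * s * k⁻¹⁻¹)⁻¹ ∈ Cfsg.pCoreOf p A ⊓ B :=
          ⟨conjMem hAYA htA hz.1, B.mul_mem (B.mul_mem htB hz.2) (B.inv_mem htB)⟩
        refine ⟨_, hz', ?_⟩
        show k * ((k⁻¹ * s * k⁻¹⁻¹) * z * (k⁻¹ * s * k⁻¹⁻¹)⁻¹) * k⁻¹ = s * (k * z * k⁻¹) * s⁻¹
        group
      have hHB : SS A B ⊔ (Cfsg.pCoreOf p A ⊓ B).map (MulAut.conj k).toMonoidHom ≤ B :=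
        sup_le (SS_le_right A B) hQB
      have hHQ : SS A B ⊔ (Cfsg.pCoreOf p A ⊓ B).map (MulAut.conj k).toMonoidHom ≤
          Subgroup.normalizer
            (((Cfsg.pCoreOf p A ⊓ B).map (MulAut.conj k).toMonoidHom : Subgroup G) : Set G) :=
        sup_le hSQ Subgroup.le_normalizer
      have hQH := Cfsg.Agent.Lib.Helper47.le_pCoreOf_of_le_normalizer hQp le_sup_right hHQ
      have hsn : ((SS A B).subgroupOf
          (SS A B ⊔ (Cfsg.pCoreOf p A ⊓ B).map (MulAut.conj k).toMonoidHom)).IsSubnormal :=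
        Cfsg.Agent.S3752.relSn_restrict hHB (SS_relSn A B)
      have hQN := hQH.trans (relA (p := p) le_sup_left hsn)
      rw [hNn] at hQN
      have hkA : k * y * k⁻¹ ∈ A := hQN ⟨y, hy, rfl⟩
      exact ⟨B.mul_mem (B.mul_mem hk hy.2) (B.inv_mem hk), hkA⟩
    have hnorm : KK B A ≤ Subgroup.normalizer ((Cfsg.pCoreOf p A ⊓ B : Subgroup G) : Set G) := by
      apply normNorm
      intro t ht y hy
      exact ⟨conjMem hAYA (KK_le_right B A ht) hy.1,
        B.mul_mem (B.mul_mem (KK_le_left B A ht) hy.2) (B.inv_mem (KK_le_left B A ht))⟩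
    have hsn : ((Cfsg.pCoreOf p A ⊓ B).subgroupOf B).IsSubnormal :=
      relSn_of_normal_normal hKB (KK_le_left B A) hnorm (KK_norm B A)
    exact le_pCoreOf_of_relSn inf_le_right hsn (hYAp.to_le inf_le_left)
  -- (iii)
  have hYBnYA : Cfsg.pCoreOf p B ≤ Subgroup.normalizer (Cfsg.pCoreOf p A : Set G) :=
    hYBA.trans hAYA
  have hle : Cfsg.pCoreOf p A ≤ Cfsg.pCoreOf p B := by
    by_contra hle
    have hWp : IsPGroup p (Cfsg.pCoreOf p A ⊔ Cfsg.pCoreOf p B : Subgroup G) :=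
      IsPGroup.to_sup_of_normal_left' hYAp hYBp hYBnYA
    haveI : Group.IsNilpotent ↥(Cfsg.pCoreOf p A ⊔ Cfsg.pCoreOf p B) := hWp.isNilpotent
    have hlt : (Cfsg.pCoreOf p B).subgroupOf (Cfsg.pCoreOf p A ⊔ Cfsg.pCoreOf p B) < ⊤ := by
      rw [lt_top_iff_ne_top]
      intro htop
      apply hle
      exact le_sup_left.trans (Subgroup.subgroupOf_eq_top.mp htop)
    have hnc := Group.normalizerCondition_of_isNilpotent
      (G := ↥(Cfsg.pCoreOf p A ⊔ Cfsg.pCoreOf p B)) _ hlt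
    obtain ⟨w, hwn, hwY⟩ := SetLike.exists_of_lt hnc
    rw [← Subgroup.subgroupOf_normalizer_eq le_sup_right] at hwn
    have hwn' : (w : G) ∈ Subgroup.normalizer (Cfsg.pCoreOf p B : Set G) :=
      Subgroup.mem_subgroupOf.mp hwn
    have hwY' : (w : G) ∉ Cfsg.pCoreOf p B := fun hh => hwY (Subgroup.mem_subgroupOf.mpr hh)
    have hwW : (w : G) ∈ ((Cfsg.pCoreOf p B ⊔ Cfsg.pCoreOf p A : Subgroup G) : Set G) := by
      rw [sup_comm]; exact w.2
    rw [Subgroup.coe_mul_of_left_le_normalizer_right _ _ hYBnYA] at hwW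
    obtain ⟨b, hb, a, ha, hba⟩ := Set.mem_mul.mp hwW
    have haN : a ∈ Subgroup.normalizer (Cfsg.pCoreOf p B : Set G) := by
      have e : a = b⁻¹ * (w : G) := by rw [← hba]; group
      rw [e]
      exact Subgroup.mul_mem _ (Subgroup.inv_mem _ (Subgroup.le_normalizer hb)) hwn'
    rw [hYBn] at haN
    have haYB : a ∈ Cfsg.pCoreOf p B := hii ⟨ha, haN⟩
    apply hwY'
    rw [← hba]
    exact Subgroup.mul_mem _ hb haYB
  have heq : Cfsg.pCoreOf p A = Cfsg.pCoreOf p B :=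
    Subgroup.eq_of_le_of_card_ge hle (le_of_eq hcard.symm)
  have hBA : B ≤ A := by
    have h1 := h.normalizer_eq hYAA hY hAYA
    rw [← h1, heq]
    exact hBYB
  exact h.not_le hBA

/-! ### Step 1: components -/

theorem lemL [Finite G] {H K C T M : Subgroup G} (hKH : K ≤ H)
    (hHK : H ≤ Subgroup.normalizer (K : Set G)) (hCK : C ≤ Subgroup.normalizer (K : Set G))
    (hTK : T ≤ K) (hKT : K ≤ Subgroup.normalizer (T : Set G)) (hMH : M ≤ H)
    (hM : Cfsg.IsComponent (M.subgroupOf H)) :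
    ∀ c ∈ C, ∀ m ∈ M, c⁻¹ * m * c ∈ Subgroup.normalizer (T : Set G) := by
  intro c hc
  have hT'K : T.map (MulAut.conj c).toMonoidHom ≤ K := by
    rintro _ ⟨t, ht, rfl⟩
    exact conjMem hCK hc (hTK ht)
  have hKT' : K ≤ Subgroup.normalizer ((T.map (MulAut.conj c).toMonoidHom : Subgroup G) : Set G) := by
    apply normNorm
    rintro x hx _ ⟨t, ht, rfl⟩
    have hx' : c⁻¹ * x * c⁻¹⁻¹ ∈ K := conjMem hCK (C.inv_mem hc) hx
    refine ⟨(c⁻¹ * x * c⁻¹⁻¹) * t * (c⁻¹ * x * c⁻¹⁻¹)⁻¹, conjMem hKT hx' ht, ?_⟩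
    show c * ((c⁻¹ * x * c⁻¹⁻¹) * t * (c⁻¹ * x * c⁻¹⁻¹)⁻¹) * c⁻¹ = x * (c * t * c⁻¹) * x⁻¹
    group
  have hsn : ((T.map (MulAut.conj c).toMonoidHom).subgroupOf H).IsSubnormal :=
    relSn_of_normal_normal hT'K hKH hKT' hHK
  have hMn : M ≤ Subgroup.normalizer ((T.map (MulAut.conj c).toMonoidHom : Subgroup G) : Set G) :=
    relB hMH (hT'K.trans hKH) hM hsn
  have key : M.map (MulAut.conj c⁻¹).toMonoidHom ≤ Subgroup.normalizer (T : Set G) := by
    apply normNorm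
    rintro _ ⟨m, hm, rfl⟩ t ht
    have h1 : m * (c * t * c⁻¹) * m⁻¹ ∈ T.map (MulAut.conj c).toMonoidHom :=
      conjMem hMn hm ⟨t, ht, rfl⟩
    obtain ⟨t', ht', e⟩ := h1
    have e' : c * t' * c⁻¹ = m * (c * t * c⁻¹) * m⁻¹ := e
    have e2 : (c⁻¹ * m * c⁻¹⁻¹) * t * (c⁻¹ * m * c⁻¹⁻¹)⁻¹ = t' := by
      have e3 : t' = c⁻¹ * (c * t' * c⁻¹) * c := by group
      rw [e3, e']; group
    show (c⁻¹ * m * c⁻¹⁻¹) * t * (c⁻¹ * m * c⁻¹⁻¹)⁻¹ ∈ T
    rw [e2]; exact ht'
  intro m hm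
  have h2 := key ⟨m, hm, rfl⟩
  have e : (MulAut.conj c⁻¹).toMonoidHom m = c⁻¹ * m * c := by
    show c⁻¹ * m * c⁻¹⁻¹ = _
    group
  rwa [e] at h2

theorem step1 [Finite G] {A B : Subgroup G} (h : Cfg A B) (hS : SS A B ≠ ⊥) (hS' : SS B A ≠ ⊥)
    {M : Subgroup G} (hMA : M ≤ A) (hM : Cfsg.IsComponent (M.subgroupOf A)) :
    ∃ hMB : M ≤ B, Cfsg.IsComponent (M.subgroupOf B) := by
  obtain ⟨hsnA, hqs⟩ := (Cfsg.Agent.S3752.isComponent_subgroupOf_iff hMA).mp hM
  have hnS' := h.symm.normalizer_eq (SS_le_left B A) hS' (SS_norm B A)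
  have hnS := h.normalizer_eq (SS_le_left A B) hS (SS_norm A B)
  have ha : ∀ c ∈ A, ∀ m ∈ M, c⁻¹ * m * c ∈ B := by
    intro c hc m hm
    have h1 := lemL (H := A) (K := KK A B) (C := A) (T := SS B A) (KK_le_left A B) (KK_norm A B)
      (KK_norm A B) (SS_le_KK' B A) ((KK_le_right A B).trans (SS_norm B A)) hMA hM c hc m hm
    rwa [hnS'] at h1
  have hMK : M ≤ KK A B := by
    intro m hm c hc
    have h1 := ha c⁻¹ (A.inv_mem hc) m hm
    rw [inv_inv] at h1
    exact ⟨A.mul_mem (A.mul_mem hc (hMA hm)) (A.inv_mem hc), h1⟩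
  have hMD : M ≤ A ⊓ B := hMK.trans (relCore_le _ _)
  have hMB : M ≤ B := hMD.trans inf_le_right
  have hsnD : (M.subgroupOf (A ⊓ B)).IsSubnormal :=
    Cfsg.Agent.S3752.relSn_restrict inf_le_left hsnA
  have hcD : Cfsg.IsComponent (M.subgroupOf (A ⊓ B)) :=
    (Cfsg.Agent.S3752.isComponent_subgroupOf_iff hMD).mpr ⟨hsnD, hqs⟩
  have hKBD : KK B A ≤ A ⊓ B := le_inf (KK_le_right B A) (KK_le_left B A)
  have hc : ∀ c ∈ B, ∀ m ∈ M, c⁻¹ * m * c ∈ A := by
    intro c hc m hm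
    have h1 := lemL (H := A ⊓ B) (K := KK B A) (C := B) (T := SS A B) hKBD
      (inf_le_right.trans (KK_norm B A)) (KK_norm B A) (SS_le_KK' A B)
      ((KK_le_right B A).trans (SS_norm A B)) hMD hcD c hc m hm
    rwa [hnS] at h1
  have hMKB : M ≤ KK B A := by
    intro m hm c hc'
    have h1 := hc c⁻¹ (B.inv_mem hc') m hm
    rw [inv_inv] at h1
    exact ⟨B.mul_mem (B.mul_mem hc' (hMB hm)) (B.inv_mem hc'), h1⟩
  have hsnK : (M.subgroupOf (KK B A)).IsSubnormal :=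
    Cfsg.Agent.S3752.relSn_restrict hKBD hsnD
  have hsnB : (M.subgroupOf B).IsSubnormal :=
    Cfsg.Agent.S3752.relSn_trans hMKB (KK_le_left B A) hsnK
      (relSn_of_normal (KK_le_left B A) (KK_norm B A))
  exact ⟨hMB, (Cfsg.Agent.S3752.isComponent_subgroupOf_iff hMB).mpr ⟨hsnB, hqs⟩⟩

theorem layerIn_le_of [Finite G] {A B : Subgroup G}
    (hst : ∀ M : Subgroup G, ∀ _ : M ≤ A, Cfsg.IsComponent (M.subgroupOf A) →
      ∃ _ : M ≤ B, Cfsg.IsComponent (M.subgroupOf B)) :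
    (Cfsg.layer ↥A).map A.subtype ≤ (Cfsg.layer ↥B).map B.subtype := by
  have e : (Cfsg.layer ↥A).map A.subtype =
      ⨆ K : {K : Subgroup ↥A // Cfsg.IsComponent K}, (K : Subgroup ↥A).map A.subtype := by
    unfold Cfsg.layer
    rw [sSup_eq_iSup', Subgroup.map_iSup]
    rfl
  rw [e]
  refine iSup_le fun K => ?_
  have hKeq : ((K : Subgroup ↥A).map A.subtype).subgroupOf A = K :=
    Subgroup.comap_map_eq_self_of_injective (Subgroup.subtype_injective _) _
  obtain ⟨hMB, hc⟩ := hst _ (Subgroup.map_subtype_le _) (by rw [hKeq]; exact K.2)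
  have h3 := Subgroup.map_mono (f := B.subtype) (Cfsg.Agent.Lib.Helper22.component_le_layer hc)
  rwa [Subgroup.map_subgroupOf_eq_of_le hMB] at h3

theorem layer_eq_bot [Finite G] {A B : Subgroup G} (h : Cfg A B) (hS : SS A B ≠ ⊥)
    (hS' : SS B A ≠ ⊥) : Cfsg.layer ↥A = ⊥ := by
  have h1 := layerIn_le_of (A := A) (B := B) (fun M hMA hM => step1 h hS hS' hMA hM)
  have h2 := layerIn_le_of (A := B) (B := A) (fun M hMB hM => step1 h.symm hS' hS hMB hM)
  have heq := le_antisymm h1 h2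
  by_contra hne
  have hEne : (Cfsg.layer ↥A).map A.subtype ≠ ⊥ := by
    intro h0
    exact hne ((Subgroup.map_eq_bot_iff_of_injective _ (Subgroup.subtype_injective _)).mp h0)
  haveI : (Cfsg.layer ↥A).Normal := Cfsg.Agent.Lib.Helper22.layer_normal' _
  haveI : (Cfsg.layer ↥B).Normal := Cfsg.Agent.Lib.Helper22.layer_normal' _
  have hAn : A ≤ Subgroup.normalizer (((Cfsg.layer ↥A).map A.subtype : Subgroup G) : Set G) :=
    Cfsg.Agent.S3752.le_normalizer_map_subtype A _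
  have hBn : B ≤ Subgroup.normalizer (((Cfsg.layer ↥A).map A.subtype : Subgroup G) : Set G) := by
    rw [heq]
    exact Cfsg.Agent.S3752.le_normalizer_map_subtype B _
  have hn := h.normalizer_eq (Subgroup.map_subtype_le _) hEne hAn
  rw [hn] at hBn
  exact h.not_le hBn

/-! ### Step 2 and the main theorem -/

theorem exists_pCore_ne_bot (X : Type u) [Group X] [Finite X] [Nontrivial X]
    (hl : Cfsg.layer X = ⊥) : ∃ p : ℕ, p.Prime ∧ Cfsg.pCore p X ≠ ⊥ := by
  have hF : Cfsg.fittingSubgroup X ≠ ⊥ := by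
    intro h0
    have hb := Cfsg.Agent.Lib.Helper30.centralizer_generalizedFittingSubgroup_le X
    have hg : Cfsg.generalizedFittingSubgroup X = ⊥ := by
      unfold Cfsg.generalizedFittingSubgroup
      rw [hl, h0, bot_sup_eq]
    rw [hg] at hb
    have hle : (⊤ : Subgroup X) ≤ ⊥ := by
      refine le_trans ?_ hb
      intro x _
      rw [Subgroup.mem_centralizer_iff]
      intro y hy
      have hy1 : y = 1 := Subgroup.mem_bot.mp hy
      rw [hy1, one_mul, mul_one]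
    exact bot_ne_top (le_antisymm bot_le hle)
  have hcard : Nat.card (Cfsg.fittingSubgroup X) ≠ 1 :=
    fun h1 => hF (Subgroup.eq_bot_of_card_eq _ h1)
  obtain ⟨p, hp, hpd⟩ := Nat.exists_prime_and_dvd hcard
  refine ⟨p, hp, ?_⟩
  intro h0
  haveI : Fact p.Prime := ⟨hp⟩
  obtain ⟨Y, hYn, hYc, hYF, hdec⟩ := Cfsg.Agent.S3752.fit_decomp X p
  have hle : Cfsg.fittingSubgroup X ≤ Y := by
    intro f hf
    obtain ⟨b, hb, y, hy, rfl⟩ := hdec f hf
    rw [h0, Subgroup.mem_bot] at hb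
    rw [hb, one_mul]
    exact hy
  have hdvd : p ∣ Nat.card Y := hpd.trans (Subgroup.card_dvd_of_le hle)
  exact (Nat.Prime.coprime_iff_not_dvd hp).mp hYc.symm hdvd

theorem fstar_eq_pCore (X : Type u) [Group X] [Finite X] (hl : Cfsg.layer X = ⊥) {p : ℕ}
    (hp : p.Prime) (hq : ∀ q : ℕ, q.Prime → q ≠ p → Cfsg.pCore q X = ⊥) :
    Cfsg.generalizedFittingSubgroup X = Cfsg.pCore p X := by
  haveI : Fact p.Prime := ⟨hp⟩
  have hFn : (Cfsg.fittingSubgroup X).Normal := Cfsg.Agent.Lib.Helper71.fittingSubgroup_normal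
  have hg : Cfsg.generalizedFittingSubgroup X = Cfsg.fittingSubgroup X := by
    unfold Cfsg.generalizedFittingSubgroup
    rw [hl, bot_sup_eq]
  rw [hg]
  apply le_antisymm
  · have hprime : ∀ q : ℕ, q.Prime → q ∣ Nat.card (Cfsg.fittingSubgroup X) → q = p := by
      intro q hqp hqd
      by_contra hne
      haveI : Fact q.Prime := ⟨hqp⟩
      obtain ⟨Y, hYn, hYc, hYF, hdec⟩ := Cfsg.Agent.S3752.fit_decomp X q
      have hle : Cfsg.fittingSubgroup X ≤ Y := by
        intro f hf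
        obtain ⟨b, hb, y, hy, rfl⟩ := hdec f hf
        rw [hq q hqp hne, Subgroup.mem_bot] at hb
        rw [hb, one_mul]
        exact hy
      exact (Nat.Prime.coprime_iff_not_dvd hqp).mp hYc.symm
        (hqd.trans (Subgroup.card_dvd_of_le hle))
    have hpg : IsPGroup p (Cfsg.fittingSubgroup X) := by
      have hne : Nat.card (Cfsg.fittingSubgroup X) ≠ 0 := Nat.card_pos.ne'
      have h1 := Nat.eq_prime_pow_of_unique_prime_dvd hne (fun {q} hq hd => hprime q hq hd)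
      exact IsPGroup.of_card h1
    exact le_sSup ⟨hFn, hpg⟩
  · haveI : (Cfsg.pCore p X).Normal := Subgroup.sSup_normal _ (fun _ h => h.1)
    exact Cfsg.Agent.Lib.Helper71.le_fittingSubgroup _
      (Cfsg.Agent.S3752.pCore_isPGroup p X).isNilpotent

theorem main [Finite G] {A B : Subgroup G} (h : Cfg A B)
    (hcard : ∀ p : ℕ, p.Prime → Nat.card (Cfsg.pCoreOf p A) = Nat.card (Cfsg.pCoreOf p B))
    (hS : SS A B ≠ ⊥) (hS' : SS B A ≠ ⊥) :
    ∃ p : ℕ, p.Prime ∧ IsPGroup p (SS A B) ∧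
      Cfsg.generalizedFittingSubgroup ↥A = Cfsg.pCore p ↥A := by
  have hl := layer_eq_bot h hS hS'
  have hAne : A ≠ ⊥ := by
    intro h0
    apply hS
    exact le_bot_iff.mp ((SS_le_left A B).trans (le_of_eq h0))
  haveI : Nontrivial ↥A := (Subgroup.nontrivial_iff_ne_bot A).mpr hAne
  obtain ⟨p, hp, hpc⟩ := exists_pCore_ne_bot ↥A hl
  haveI : Fact p.Prime := ⟨hp⟩
  have hof : ∀ q : ℕ, Cfsg.pCore q ↥A ≠ ⊥ → Cfsg.pCoreOf q A ≠ ⊥ := by
    intro q hq h0
    exact hq ((Subgroup.map_eq_bot_iff_of_injective _ (Subgroup.subtype_injective _)).mp h0)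
  have hSp := step3 h (hof p hpc) (hcard p hp)
  refine ⟨p, hp, hSp, fstar_eq_pCore ↥A hl hp ?_⟩
  intro q hq hne
  by_contra hqc
  haveI : Fact q.Prime := ⟨hq⟩
  have hSq := step3 h (hof q hqc) (hcard q hq)
  apply hS
  obtain ⟨a, ha⟩ := hSp.exists_card_eq
  obtain ⟨b, hb⟩ := hSq.exists_card_eq
  have h1 : Nat.card (SS A B) = 1 := by
    by_contra h1
    obtain ⟨r, hr, hrd⟩ := Nat.exists_prime_and_dvd h1
    have h1' : r = p := (Nat.prime_dvd_prime_iff_eq hr hp).mp (hr.dvd_of_dvd_pow (ha ▸ hrd))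
    have h2' : r = q := (Nat.prime_dvd_prime_iff_eq hr hq).mp (hr.dvd_of_dvd_pow (hb ▸ hrd))
    exact hne (h2'.symm.trans h1')
  exact Subgroup.eq_bot_of_card_eq _ h1

end Cfsg.Agent.Lib.Helper11.TW
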