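import Mathlib
import Cfsg.Agent.Lib.Helper11.TW.Core

set_option autoImplicit false

/-!
Index bound for the Thompson–Wielandt subgroup `SS A B`:
if `|A : A ⊓ B| = |B : A ⊓ B| = d` then `|A : SS A B|` divides `d! * ((d-1)!)^d`.
-/

namespace Cfsg.Agent.Lib.Helper11.TW

open Cfsg

universe u

variable {G : Type u} [Group G]

theorem index_ker_dvd_card {K M : Type*} [Group K] [Group M] [Finite M] (f : K →* M) :
    f.ker.index ∣ Nat.card M := by
  rw [Subgroup.index_ker]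
  exact Subgroup.card_subgroup_dvd_card f.range

theorem relCore_relIndex_dvd [Finite G] (A D : Subgroup G) :
    (relCore A D).relIndex A ∣ (D.relIndex A).factorial := by
  have e : (relCore A D).subgroupOf A = (D.subgroupOf A).normalCore := by
    ext x
    rw [Subgroup.mem_subgroupOf]
    constructor
    · intro hx
      show ∀ b : ↥A, b * x * b⁻¹ ∈ D.subgroupOf A
      intro b
      exact Subgroup.mem_subgroupOf.mpr (hx b.1 b.2)
    · intro hx h hh
      have h1 : ∀ b : ↥A, b * x * b⁻¹ ∈ D.subgroupOf A := hx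
      exact Subgroup.mem_subgroupOf.mp (h1 ⟨h, hh⟩)
  unfold Subgroup.relIndex
  rw [e, Subgroup.normalCore_eq_ker]
  have h1 := index_ker_dvd_card (MulAction.toPermHom ↥A (↥A ⧸ D.subgroupOf A))
  rw [Nat.card_perm] at h1
  exact h1

theorem KK_relIndex_dvd [Finite G] {A B : Subgroup G} {d : ℕ}
    (hA : (A ⊓ B).relIndex A = d) : (KK A B).relIndex A ∣ d.factorial := by
  have := relCore_relIndex_dvd A (A ⊓ B)
  rw [hA] at this
  exact this

theorem KK_le_inf (A B : Subgroup G) : KK A B ≤ A ⊓ B := relCore_le _ _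

theorem KK_le_inf' (A B : Subgroup G) : KK B A ≤ A ⊓ B := by
  exact (relCore_le B (B ⊓ A)).trans (le_of_eq (inf_comm B A))

theorem KK_relIndex_inf_dvd [Finite G] {A B : Subgroup G} {d : ℕ}
    (hA : (A ⊓ B).relIndex A = d) : (KK A B).relIndex (A ⊓ B) ∣ (d - 1).factorial := by
  have h1 := KK_relIndex_dvd hA
  have h2 := Subgroup.relIndex_mul_relIndex (KK A B) (A ⊓ B) A (KK_le_inf A B) inf_le_left
  rw [hA] at h2
  have hd : 0 < d := by
    rw [← hA]
    exact Nat.pos_of_ne_zero (Subgroup.index_ne_zero_of_finite (H := (A ⊓ B).subgroupOf A))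
  rw [← h2, ← Nat.mul_factorial_pred (Nat.pos_iff_ne_zero.mp hd), mul_comm] at h1
  exact Nat.dvd_of_mul_dvd_mul_left hd h1

theorem SS_relIndex_KK_dvd [Finite G] {A B : Subgroup G} {d : ℕ}
    (hA : (A ⊓ B).relIndex A = d) (hB : (A ⊓ B).relIndex B = d) :
    (SS A B).relIndex (KK A B) ∣ ((d - 1).factorial) ^ d := by
  have hNle : KK B A ≤ A ⊓ B := KK_le_inf' A B
  haveI hNn : ((KK B A).subgroupOf (A ⊓ B)).Normal :=
    (Subgroup.normal_subgroupOf_iff_le_normalizer hNle).mpr (inf_le_right.trans (KK_norm B A))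
  have hconj : ∀ h ∈ A, ∀ x ∈ KK A B, h⁻¹ * x * h ∈ A ⊓ B := by
    intro h hh x hx
    have := conjMem (KK_norm A B) (A.inv_mem hh) hx
    rw [inv_inv] at this
    exact relCore_le _ _ this
  let c : ↥A → ↥(KK A B) →* ↥(A ⊓ B) := fun h =>
    { toFun := fun x => ⟨(h : G)⁻¹ * x * h, hconj h h.2 x x.2⟩
      map_one' := by
        apply Subtype.ext
        simp
      map_mul' := by
        intro x y
        apply Subtype.ext
        simp only [Subgroup.coe_mul]
        group }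
  let Φ : ↥(KK A B) →*
      ((↥A ⧸ (A ⊓ B).subgroupOf A) → (↥(A ⊓ B) ⧸ (KK B A).subgroupOf (A ⊓ B))) :=
    MonoidHom.pi (fun q => (QuotientGroup.mk' ((KK B A).subgroupOf (A ⊓ B))).comp (c q.out))
  have hΦ : ∀ (x : ↥(KK A B)) (q : ↥A ⧸ (A ⊓ B).subgroupOf A),
      Φ x q = 1 ↔ ((q.out : ↥A) : G)⁻¹ * x * ((q.out : ↥A) : G) ∈ KK B A := by
    intro x q
    have h1 : Φ x q = (QuotientGroup.mk' ((KK B A).subgroupOf (A ⊓ B))) (c q.out x) := rfl
    rw [h1, ← MonoidHom.mem_ker, QuotientGroup.ker_mk', Subgroup.mem_subgroupOf]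
    exact Iff.rfl
  have hker : Φ.ker = (SS A B).subgroupOf (KK A B) := by
    ext x
    rw [MonoidHom.mem_ker, Subgroup.mem_subgroupOf]
    constructor
    · intro hx
      have h1 : ∀ q : ↥A ⧸ (A ⊓ B).subgroupOf A,
          ((q.out : ↥A) : G)⁻¹ * x * ((q.out : ↥A) : G) ∈ KK B A := by
        intro q
        rw [← hΦ, hx]
        rfl
      intro h hh
      refine ⟨conjMem (KK_norm A B) hh x.2, ?_⟩
      obtain ⟨c', hc'⟩ := QuotientGroup.mk_out_eq_mul ((A ⊓ B).subgroupOf A) (⟨h, hh⟩⁻¹ : ↥A)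
      have h3 := h1 (QuotientGroup.mk (⟨h, hh⟩⁻¹ : ↥A))
      rw [hc'] at h3
      have hcB : ((c' : ↥A) : G) ∈ B := (Subgroup.mem_subgroupOf.mp c'.2).2
      have h4 := conjMem (KK_norm B A) hcB h3
      have e : ((c' : ↥A) : G) * ((((⟨h, hh⟩⁻¹ : ↥A) * (c' : ↥A) : ↥A) : G)⁻¹ * x *
          (((⟨h, hh⟩⁻¹ : ↥A) * (c' : ↥A) : ↥A) : G)) * ((c' : ↥A) : G)⁻¹ = h * x * h⁻¹ := by
        simp only [Subgroup.coe_mul, Subgroup.coe_inv]
        group
      rwa [e] at h4
    · intro hx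
      funext q
      show Φ x q = 1
      rw [hΦ]
      have := (hx ((q.out : ↥A) : G)⁻¹ (A.inv_mem q.out.2)).2
      rw [inv_inv] at this
      exact this
  have h1 := index_ker_dvd_card Φ
  rw [hker, Nat.card_fun] at h1
  have h2 : Nat.card (↥A ⧸ (A ⊓ B).subgroupOf A) = d := hA
  have h3 : Nat.card (↥(A ⊓ B) ⧸ (KK B A).subgroupOf (A ⊓ B)) ∣ (d - 1).factorial := by
    have := KK_relIndex_inf_dvd (A := B) (B := A) (d := d) (by rw [inf_comm]; exact hB)
    rw [inf_comm] at this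
    exact this
  rw [h2] at h1
  exact h1.trans (pow_dvd_pow_of_dvd h3 d)

/-- The index bound. -/
theorem SS_relIndex_dvd [Finite G] {A B : Subgroup G} {d : ℕ}
    (hA : (A ⊓ B).relIndex A = d) (hB : (A ⊓ B).relIndex B = d) :
    (SS A B).relIndex A ∣ d.factorial * ((d - 1).factorial) ^ d := by
  have h1 := SS_relIndex_KK_dvd hA hB
  have h2 := KK_relIndex_dvd hA
  have h3 := Subgroup.relIndex_mul_relIndex (SS A B) (KK A B) A (SS_le_KK A B) (KK_le_left A B)
  rw [← h3, mul_comm]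
  exact Nat.mul_dvd_mul h2 h1

end Cfsg.Agent.Lib.Helper11.TW
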