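import Mathlib
import Cfsg.Agent.Lib.Helper11.TW.Index

set_option autoImplicit false

/-!
Thompson–Wielandt for a finite primitive permutation group: bridging from the permutation
group setting to the pair of maximal subgroups `A = G_a`, `B = G_b`.
-/

namespace Cfsg.Agent.Lib.Helper11.TW

open Cfsg

theorem pCore_map_equiv_le {H H' : Type*} [Group H] [Group H'] (e : H ≃* H') (p : ℕ) :
    (Cfsg.pCore p H).map e.toMonoidHom ≤ Cfsg.pCore p H' := by
  haveI : (Cfsg.pCore p H).Normal := Subgroup.sSup_normal _ (fun _ h => h.1)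
  apply le_sSup
  exact ⟨Subgroup.Normal.map inferInstance _ e.surjective,
    (Cfsg.Agent.S3752.pCore_isPGroup p H).map _⟩

theorem card_pCore_equiv {H H' : Type*} [Group H] [Group H'] [Finite H] (e : H ≃* H') (p : ℕ) :
    Nat.card (Cfsg.pCore p H) = Nat.card (Cfsg.pCore p H') := by
  haveI : Finite H' := Finite.of_equiv H e.toEquiv
  apply le_antisymm
  · have := Subgroup.card_le_of_le (pCore_map_equiv_le e p)
    rwa [Subgroup.card_map_of_injective e.injective] at this
  · have := Subgroup.card_le_of_le (pCore_map_equiv_le e.symm p)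
    rwa [Subgroup.card_map_of_injective e.symm.injective] at this

/-- Thompson–Wielandt, permutation group form. -/
theorem bridge {G Ω : Type*} [Group G] [Finite G] [MulAction G Ω] [FaithfulSMul G Ω] [Finite Ω]
    (hprim : MulAction.IsPreprimitive G Ω) (a b : Ω) (d : ℕ)
    (hd : Nat.card (MulAction.orbit (MulAction.stabilizer G a) b) = d) (h2 : 2 ≤ d) :
    Nat.card (MulAction.stabilizer G a) ∣ Nat.factorial d * (Nat.factorial (d - 1)) ^ d ∨
    ((SS (MulAction.stabilizer G a) (MulAction.stabilizer G b)).relIndex
          (MulAction.stabilizer G a) ∣ Nat.factorial d * (Nat.factorial (d - 1)) ^ d ∧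
      ∃ p : ℕ, p.Prime ∧ IsPGroup p (SS (MulAction.stabilizer G a) (MulAction.stabilizer G b)) ∧
        Cfsg.generalizedFittingSubgroup ↥(MulAction.stabilizer G a) =
          Cfsg.pCore p ↥(MulAction.stabilizer G a)) := by
  classical
  haveI := hprim.toIsPretransitive
  have hnt : Nontrivial Ω := by
    by_contra hnt
    rw [not_nontrivial_iff_subsingleton] at hnt
    have : Nat.card (MulAction.orbit (MulAction.stabilizer G a) b) ≤ 1 :=
      Finite.card_le_one_iff_subsingleton.mpr inferInstance
    omega
  have hcoA : IsCoatom (MulAction.stabilizer G a) :=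
    (MulAction.isCoatom_stabilizer_iff_preprimitive G a).mpr hprim
  have hcoB : IsCoatom (MulAction.stabilizer G b) :=
    (MulAction.isCoatom_stabilizer_iff_preprimitive G b).mpr hprim
  have hne : MulAction.stabilizer G a ≠ MulAction.stabilizer G b := by
    intro hAB
    have hsub : Subsingleton (MulAction.orbit (MulAction.stabilizer G a) b) := by
      constructor
      rintro ⟨x, hx⟩ ⟨y, hy⟩
      obtain ⟨g, rfl⟩ := hx
      obtain ⟨g', rfl⟩ := hy
      apply Subtype.ext
      have hg : (g : G) ∈ MulAction.stabilizer G b := hAB ▸ g.2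
      have hg' : (g' : G) ∈ MulAction.stabilizer G b := hAB ▸ g'.2
      show (g : G) • b = (g' : G) • b
      rw [MulAction.mem_stabilizer_iff.mp hg, MulAction.mem_stabilizer_iff.mp hg']
    have : Nat.card (MulAction.orbit (MulAction.stabilizer G a) b) ≤ 1 :=
      Finite.card_le_one_iff_subsingleton.mpr hsub
    omega
  have hcore : ∀ (x : Ω) (N : Subgroup G), N.Normal → N ≤ MulAction.stabilizer G x → N = ⊥ := by
    intro x N hN hle
    rw [Subgroup.eq_bot_iff_forall]
    intro n hn
    apply FaithfulSMul.eq_of_smul_eq_smul (α := Ω)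
    intro y
    obtain ⟨g, rfl⟩ := MulAction.exists_smul_eq G x y
    have h1 : g⁻¹ * n * g ∈ N := by
      have := hN.conj_mem n hn g⁻¹
      simpa using this
    have h3 := MulAction.mem_stabilizer_iff.mp (hle h1)
    rw [one_smul]
    calc n • g • x = g • (g⁻¹ * n * g) • x := by simp [smul_smul, mul_assoc]
      _ = g • x := by rw [h3]
  have hcfg : Cfg (MulAction.stabilizer G a) (MulAction.stabilizer G b) :=
    ⟨hcoA, hcoB, hne, hcore a, hcore b⟩
  obtain ⟨g, hg⟩ := MulAction.exists_smul_eq G a b
  have hBA : MulAction.stabilizer G b =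
      (MulAction.stabilizer G a).map (MulAut.conj g).toMonoidHom := by
    rw [← hg]
    exact MulAction.stabilizer_smul_eq_stabilizer_map_conj g a
  let e : ↥(MulAction.stabilizer G a) ≃* ↥(MulAction.stabilizer G b) :=
    ((MulAut.conj g).subgroupMap (MulAction.stabilizer G a)).trans
      (MulEquiv.subgroupCongr hBA.symm)
  have hcardAB : Nat.card ↥(MulAction.stabilizer G a) = Nat.card ↥(MulAction.stabilizer G b) :=
    Nat.card_congr e.toEquiv
  have hpc : ∀ p : ℕ, p.Prime → Nat.card (Cfsg.pCoreOf p (MulAction.stabilizer G a)) =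
      Nat.card (Cfsg.pCoreOf p (MulAction.stabilizer G b)) := by
    intro p _
    unfold Cfsg.pCoreOf
    rw [Subgroup.card_map_of_injective (Subgroup.subtype_injective _),
      Subgroup.card_map_of_injective (Subgroup.subtype_injective _)]
    exact card_pCore_equiv e p
  have hdA : (MulAction.stabilizer G a ⊓ MulAction.stabilizer G b).relIndex
      (MulAction.stabilizer G a) = d := by
    rw [Subgroup.inf_relIndex_left]
    have h1 : MulAction.stabilizer ↥(MulAction.stabilizer G a) b =
        (MulAction.stabilizer G b).subgroupOf (MulAction.stabilizer G a) := by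
      ext x
      rw [MulAction.mem_stabilizer_iff, Subgroup.mem_subgroupOf, MulAction.mem_stabilizer_iff]
      rfl
    have h3 := MulAction.index_stabilizer ↥(MulAction.stabilizer G a) b
    rw [h1, ← Nat.card_coe_set_eq] at h3
    rw [← hd]
    exact h3
  have hcardinf : ∀ (X Y : Subgroup G), (X ⊓ Y).relIndex X * Nat.card ↥(X ⊓ Y) = Nat.card ↥X := by
    intro X Y
    have h1 := Subgroup.card_mul_index ((X ⊓ Y).subgroupOf X)
    have h3 : Nat.card ((X ⊓ Y).subgroupOf X) = Nat.card ↥(X ⊓ Y) :=
      Nat.card_congr (Subgroup.subgroupOfEquivOfLe inf_le_left).toEquiv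
    rw [h3, mul_comm] at h1
    exact h1
  have hdB : (MulAction.stabilizer G a ⊓ MulAction.stabilizer G b).relIndex
      (MulAction.stabilizer G b) = d := by
    have h1 := hcardinf (MulAction.stabilizer G a) (MulAction.stabilizer G b)
    have h3 := hcardinf (MulAction.stabilizer G b) (MulAction.stabilizer G a)
    rw [inf_comm] at h3
    rw [hdA, hcardAB, ← h3] at h1
    have hpos : 0 < Nat.card ↥(MulAction.stabilizer G a ⊓ MulAction.stabilizer G b) :=
      Nat.card_pos
    exact (Nat.eq_of_mul_eq_mul_right hpos h1).symm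
  have hdA' : (MulAction.stabilizer G b ⊓ MulAction.stabilizer G a).relIndex
      (MulAction.stabilizer G b) = d := by rw [inf_comm]; exact hdB
  have hdB' : (MulAction.stabilizer G b ⊓ MulAction.stabilizer G a).relIndex
      (MulAction.stabilizer G a) = d := by rw [inf_comm]; exact hdA
  have hidx := SS_relIndex_dvd hdA hdB
  have hidx' := SS_relIndex_dvd hdA' hdB'
  by_cases hS : SS (MulAction.stabilizer G a) (MulAction.stabilizer G b) = ⊥
  · left
    rw [hS, Subgroup.relIndex_bot_left] at hidx
    exact hidx
  by_cases hS' : SS (MulAction.stabilizer G b) (MulAction.stabilizer G a) = ⊥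
  · left
    rw [hS', Subgroup.relIndex_bot_left, ← hcardAB] at hidx'
    exact hidx'
  right
  exact ⟨hidx, main hcfg hpc hS hS'⟩

end Cfsg.Agent.Lib.Helper11.TW
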