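import Mathlib
import Cfsg.Agent.Lib.Helper11.TW.Bridge

set_option autoImplicit false

/-!
Knapp's theorem: if the group induced by `G_ab` on the suborbit `Δ(a) = b^{G_a}` has trivial
Fitting subgroup, then `F(G_ab) = 1` and `|G_a|` divides `d! * ((d-1)!)^d`.
-/

namespace Cfsg.Agent.Lib.Helper11.TW

open Cfsg

universe u

variable {G : Type u} [Group G]

/-- normalizer growth in a `p`-group -/
theorem pgrow [Finite G] {p : ℕ} [Fact p.Prime] {R Y : Subgroup G} (hR : IsPGroup p R)
    (hY : IsPGroup p Y) (hRY : R ≤ Subgroup.normalizer (Y : Set G))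
    (hN : Subgroup.normalizer (R : Set G) ⊓ Y ≤ R) : Y ≤ R := by
  by_contra hle
  have hWp : IsPGroup p (Y ⊔ R : Subgroup G) := IsPGroup.to_sup_of_normal_left' hY hR hRY
  haveI : Group.IsNilpotent ↥(Y ⊔ R) := hWp.isNilpotent
  have hlt : R.subgroupOf (Y ⊔ R) < ⊤ := by
    rw [lt_top_iff_ne_top]
    intro htop
    apply hle
    exact le_sup_left.trans (Subgroup.subgroupOf_eq_top.mp htop)
  have hnc := Group.normalizerCondition_of_isNilpotent (G := ↥(Y ⊔ R)) _ hlt
  obtain ⟨w, hwn, hwY⟩ := SetLike.exists_of_lt hnc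
  rw [← Subgroup.subgroupOf_normalizer_eq le_sup_right] at hwn
  have hwn' : (w : G) ∈ Subgroup.normalizer (R : Set G) := Subgroup.mem_subgroupOf.mp hwn
  have hwR : (w : G) ∉ R := fun hh => hwY (Subgroup.mem_subgroupOf.mpr hh)
  have hwW : (w : G) ∈ ((R ⊔ Y : Subgroup G) : Set G) := by
    rw [sup_comm]; exact w.2
  rw [Subgroup.coe_mul_of_left_le_normalizer_right _ _ hRY] at hwW
  obtain ⟨r, hr, y, hy, hry⟩ := Set.mem_mul.mp hwW
  have hyN : y ∈ Subgroup.normalizer (R : Set G) := by
    have e : y = r⁻¹ * (w : G) := by rw [← hry]; group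
    rw [e]
    exact Subgroup.mul_mem _ (Subgroup.inv_mem _ (Subgroup.le_normalizer hr)) hwn'
  have hyR : y ∈ R := hN ⟨hyN, hy⟩
  apply hwR
  rw [← hry]
  exact R.mul_mem hr hyR

/-- If `O_p(A ⊓ B)` lies in the kernel `KK A B` of `A` on the cosets of `A ⊓ B`, then it is
trivial. -/
theorem knapp_pCore [Finite G] {A B : Subgroup G} (h : Cfg A B) {p : ℕ} [Fact p.Prime]
    (hcard : Nat.card (Cfsg.pCoreOf p A) = Nat.card (Cfsg.pCoreOf p B))
    (hR : Cfsg.pCoreOf p (A ⊓ B) ≤ KK A B) : Cfsg.pCoreOf p (A ⊓ B) = ⊥ := by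
  by_contra hne
  have hRp : IsPGroup p (Cfsg.pCoreOf p (A ⊓ B)) := pCoreOf_isPGroup p _
  have hRle : Cfsg.pCoreOf p (A ⊓ B) ≤ A ⊓ B := pCoreOf_le p _
  have hRn : A ⊓ B ≤ Subgroup.normalizer (Cfsg.pCoreOf p (A ⊓ B) : Set G) := pCoreOf_norm p _
  have hRA : Cfsg.pCoreOf p (A ⊓ B) ≤ Cfsg.pCoreOf p A := by
    refine le_pCoreOf_of_relSn (hRle.trans inf_le_left) ?_ hRp
    exact relSn_of_normal_normal hR (KK_le_left A B) ((KK_le_inf A B).trans hRn) (KK_norm A B)
  have hQn : A ≤ Subgroup.normalizer ((Cfsg.pCoreOf p A ⊓ KK A B : Subgroup G) : Set G) := by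
    apply normNorm
    intro g hg x hx
    exact ⟨conjMem (pCoreOf_norm p A) hg hx.1, conjMem (KK_norm A B) hg hx.2⟩
  have hQR : Cfsg.pCoreOf p A ⊓ KK A B ≤ Cfsg.pCoreOf p (A ⊓ B) := by
    have hQle : Cfsg.pCoreOf p A ⊓ KK A B ≤ A ⊓ B := inf_le_right.trans (KK_le_inf A B)
    exact le_pCoreOf_of_relSn hQle (relSn_of_normal hQle (inf_le_left.trans hQn))
      ((pCoreOf_isPGroup p A).to_le inf_le_left)
  have hReq : Cfsg.pCoreOf p (A ⊓ B) = Cfsg.pCoreOf p A ⊓ KK A B :=
    le_antisymm (le_inf hRA hR) hQR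
  have hAn : A ≤ Subgroup.normalizer (Cfsg.pCoreOf p (A ⊓ B) : Set G) := by
    rw [hReq]
    exact hQn
  have hNeq := h.normalizer_eq (hRle.trans inf_le_left) hne hAn
  have hYA : Cfsg.pCoreOf p B ⊓ A ≤ Cfsg.pCoreOf p (A ⊓ B) := by
    have hle : Cfsg.pCoreOf p B ⊓ A ≤ A ⊓ B := by
      intro x hx
      exact ⟨hx.2, pCoreOf_le p B hx.1⟩
    have hn : A ⊓ B ≤ Subgroup.normalizer ((Cfsg.pCoreOf p B ⊓ A : Subgroup G) : Set G) := by
      apply normNorm
      intro g hg x hx
      exact ⟨conjMem (pCoreOf_norm p B) hg.2 hx.1,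
        A.mul_mem (A.mul_mem hg.1 hx.2) (A.inv_mem hg.1)⟩
    exact le_pCoreOf_of_relSn hle (relSn_of_normal hle hn)
      ((pCoreOf_isPGroup p B).to_le inf_le_left)
  have hYR : Cfsg.pCoreOf p B ≤ Cfsg.pCoreOf p (A ⊓ B) := by
    apply pgrow hRp (pCoreOf_isPGroup p B) ((hRle.trans inf_le_right).trans (pCoreOf_norm p B))
    rw [hNeq, inf_comm]
    exact hYA
  have hle2 : Cfsg.pCoreOf p B ≤ Cfsg.pCoreOf p A := hYR.trans hRA
  have heq1 : Cfsg.pCoreOf p B = Cfsg.pCoreOf p A :=
    Subgroup.eq_of_le_of_card_ge hle2 (le_of_eq hcard)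
  have heq2 : Cfsg.pCoreOf p (A ⊓ B) = Cfsg.pCoreOf p B :=
    le_antisymm (hRA.trans (le_of_eq heq1.symm)) hYR
  have hBn : B ≤ Subgroup.normalizer (Cfsg.pCoreOf p (A ⊓ B) : Set G) := by
    rw [heq2]
    exact pCoreOf_norm p B
  rw [hNeq] at hBn
  exact h.not_le hBn

theorem fitting_eq_bot_of_pCore (X : Type u) [Group X] [Finite X]
    (h : ∀ p : ℕ, p.Prime → Cfsg.pCore p X = ⊥) : Cfsg.fittingSubgroup X = ⊥ := by
  apply Subgroup.eq_bot_of_card_eq
  by_contra hcard
  obtain ⟨p, hp, hpd⟩ := Nat.exists_prime_and_dvd hcard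
  haveI : Fact p.Prime := ⟨hp⟩
  obtain ⟨Y, hYn, hYc, hYF, hdec⟩ := Cfsg.Agent.S3752.fit_decomp X p
  have hle : Cfsg.fittingSubgroup X ≤ Y := by
    intro f hf
    obtain ⟨b, hb, y, hy, rfl⟩ := hdec f hf
    rw [h p hp, Subgroup.mem_bot] at hb
    rw [hb, one_mul]
    exact hy
  have hdvd : p ∣ Nat.card Y := hpd.trans (Subgroup.card_dvd_of_le hle)
  exact (Nat.Prime.coprime_iff_not_dvd hp).mp hYc.symm hdvd

/-- The configuration of two point stabilizers in a primitive group. -/
theorem setup {G Ω : Type*} [Group G] [Finite G] [MulAction G Ω] [FaithfulSMul G Ω] [Finite Ω]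
    (hprim : MulAction.IsPreprimitive G Ω) (a b : Ω) (d : ℕ)
    (hd : Nat.card (MulAction.orbit (MulAction.stabilizer G a) b) = d) (h2 : 2 ≤ d) :
    Cfg (MulAction.stabilizer G a) (MulAction.stabilizer G b) ∧
    (∀ p : ℕ, p.Prime → Nat.card (Cfsg.pCoreOf p (MulAction.stabilizer G a)) =
      Nat.card (Cfsg.pCoreOf p (MulAction.stabilizer G b))) := by
  classical
  haveI := hprim.toIsPretransitive
  have hnt : Nontrivial Ω := by
    by_contra hnt
    rw [not_nontrivial_iff_subsingleton] at hnt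
    have : Nat.card (MulAction.orbit (MulAction.stabilizer G a) b) ≤ 1 :=
      Finite.card_le_one_iff_subsingleton.mpr inferInstance
    omega
  have hcoA : IsCoatom (MulAction.stabilizer G a) :=
    (MulAction.isCoatom_stabilizer_iff_preprimitive G a).mpr hprim
  have hcoB : IsCoatom (MulAction.stabilizer G b) :=
    (MulAction.isCoatom_stabilizer_iff_preprimitive G b).mpr hprim
  have hne : MulAction.stabilizer G a ≠ MulAction.stabilizer G b := by
    intro hAB
    have hsub : Subsingleton (MulAction.orbit (MulAction.stabilizer G a) b) := by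
      constructor
      rintro ⟨x, hx⟩ ⟨y, hy⟩
      obtain ⟨g, rfl⟩ := hx
      obtain ⟨g', rfl⟩ := hy
      apply Subtype.ext
      have hg : (g : G) ∈ MulAction.stabilizer G b := hAB ▸ g.2
      have hg' : (g' : G) ∈ MulAction.stabilizer G b := hAB ▸ g'.2
      show (g : G) • b = (g' : G) • b
      rw [MulAction.mem_stabilizer_iff.mp hg, MulAction.mem_stabilizer_iff.mp hg']
    have : Nat.card (MulAction.orbit (MulAction.stabilizer G a) b) ≤ 1 :=
      Finite.card_le_one_iff_subsingleton.mpr hsub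
    omega
  have hcore : ∀ (x : Ω) (N : Subgroup G), N.Normal → N ≤ MulAction.stabilizer G x → N = ⊥ := by
    intro x N hN hle
    rw [Subgroup.eq_bot_iff_forall]
    intro n hn
    apply FaithfulSMul.eq_of_smul_eq_smul (α := Ω)
    intro y
    obtain ⟨g, rfl⟩ := MulAction.exists_smul_eq G x y
    have h1 : g⁻¹ * n * g ∈ N := by
      have := hN.conj_mem n hn g⁻¹
      simpa using this
    have h3 := MulAction.mem_stabilizer_iff.mp (hle h1)
    rw [one_smul]
    calc n • g • x = g • (g⁻¹ * n * g) • x := by simp [smul_smul, mul_assoc]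
      _ = g • x := by rw [h3]
  refine ⟨⟨hcoA, hcoB, hne, hcore a, hcore b⟩, ?_⟩
  obtain ⟨g, hg⟩ := MulAction.exists_smul_eq G a b
  have hBA : MulAction.stabilizer G b =
      (MulAction.stabilizer G a).map (MulAut.conj g).toMonoidHom := by
    rw [← hg]
    exact MulAction.stabilizer_smul_eq_stabilizer_map_conj g a
  let e : ↥(MulAction.stabilizer G a) ≃* ↥(MulAction.stabilizer G b) :=
    ((MulAut.conj g).subgroupMap (MulAction.stabilizer G a)).trans
      (MulEquiv.subgroupCongr hBA.symm)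
  intro p _
  unfold Cfsg.pCoreOf
  rw [Subgroup.card_map_of_injective (Subgroup.subtype_injective _),
    Subgroup.card_map_of_injective (Subgroup.subtype_injective _)]
  exact card_pCore_equiv e p

/-- Decoding the hypothesis on the induced group: every `O_p(G_ab)` acts trivially on the
suborbit. -/
theorem pCoreOf_le_KK_of_fitting {G Ω : Type*} [Group G] [Finite G] [MulAction G Ω] [Finite Ω]
    (a b : Ω)
    (hF : Cfsg.fittingSubgroup ↥(((MulAction.stabilizer G b).subgroupOf
      (MulAction.stabilizer G a)).map (MulAction.toPermHom (MulAction.stabilizer G a)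
        (MulAction.orbit (MulAction.stabilizer G a) b))) = ⊥)
    (p : ℕ) [Fact p.Prime] :
    Cfsg.pCoreOf p (MulAction.stabilizer G a ⊓ MulAction.stabilizer G b) ≤
      KK (MulAction.stabilizer G a) (MulAction.stabilizer G b) := by
  have hRp : IsPGroup p (Cfsg.pCoreOf p (MulAction.stabilizer G a ⊓ MulAction.stabilizer G b)) :=
    pCoreOf_isPGroup p _
  have hRle : Cfsg.pCoreOf p (MulAction.stabilizer G a ⊓ MulAction.stabilizer G b) ≤
      MulAction.stabilizer G a ⊓ MulAction.stabilizer G b := pCoreOf_le p _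
  have hRn : MulAction.stabilizer G a ⊓ MulAction.stabilizer G b ≤ Subgroup.normalizer
      (Cfsg.pCoreOf p (MulAction.stabilizer G a ⊓ MulAction.stabilizer G b) : Set G) :=
    pCoreOf_norm p _
  have hR2le : ((Cfsg.pCoreOf p (MulAction.stabilizer G a ⊓ MulAction.stabilizer G b)).subgroupOf
        (MulAction.stabilizer G a)).map (MulAction.toPermHom (MulAction.stabilizer G a)
          (MulAction.orbit (MulAction.stabilizer G a) b)) ≤
      ((MulAction.stabilizer G b).subgroupOf (MulAction.stabilizer G a)).map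
        (MulAction.toPermHom (MulAction.stabilizer G a)
          (MulAction.orbit (MulAction.stabilizer G a) b)) := by
    apply Subgroup.map_mono
    intro x hx
    exact Subgroup.mem_subgroupOf.mpr (hRle (Subgroup.mem_subgroupOf.mp hx)).2
  have hR2p : IsPGroup p
      (((Cfsg.pCoreOf p (MulAction.stabilizer G a ⊓ MulAction.stabilizer G b)).subgroupOf
        (MulAction.stabilizer G a)).map (MulAction.toPermHom (MulAction.stabilizer G a)
          (MulAction.orbit (MulAction.stabilizer G a) b))) :=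
    (hRp.comap_of_injective _ (Subgroup.subtype_injective _)).map _
  haveI hnorm : ((((Cfsg.pCoreOf p (MulAction.stabilizer G a ⊓
      MulAction.stabilizer G b)).subgroupOf
        (MulAction.stabilizer G a)).map (MulAction.toPermHom (MulAction.stabilizer G a)
          (MulAction.orbit (MulAction.stabilizer G a) b))).subgroupOf
      (((MulAction.stabilizer G b).subgroupOf (MulAction.stabilizer G a)).map
        (MulAction.toPermHom (MulAction.stabilizer G a)
          (MulAction.orbit (MulAction.stabilizer G a) b)))).Normal := by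
    apply (Subgroup.normal_subgroupOf_iff_le_normalizer hR2le).mpr
    apply normNorm
    rintro _ ⟨x, hx, rfl⟩ _ ⟨y, hy, rfl⟩
    refine ⟨x * y * x⁻¹, ?_, by rw [map_mul, map_mul, map_inv]⟩
    apply Subgroup.mem_subgroupOf.mpr
    have hxB : (x : G) ∈ MulAction.stabilizer G a ⊓ MulAction.stabilizer G b :=
      ⟨x.2, Subgroup.mem_subgroupOf.mp hx⟩
    have := conjMem hRn hxB (Subgroup.mem_subgroupOf.mp hy)
    simpa using this
  have hR3p : IsPGroup p ((((Cfsg.pCoreOf p (MulAction.stabilizer G a ⊓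
      MulAction.stabilizer G b)).subgroupOf
        (MulAction.stabilizer G a)).map (MulAction.toPermHom (MulAction.stabilizer G a)
          (MulAction.orbit (MulAction.stabilizer G a) b))).subgroupOf
      (((MulAction.stabilizer G b).subgroupOf (MulAction.stabilizer G a)).map
        (MulAction.toPermHom (MulAction.stabilizer G a)
          (MulAction.orbit (MulAction.stabilizer G a) b)))) :=
    hR2p.comap_of_injective
      (((MulAction.stabilizer G b).subgroupOf (MulAction.stabilizer G a)).map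
        (MulAction.toPermHom (MulAction.stabilizer G a)
          (MulAction.orbit (MulAction.stabilizer G a) b))).subtype
      (Subgroup.subtype_injective _)
  have hle := Cfsg.Agent.Lib.Helper71.le_fittingSubgroup _ hR3p.isNilpotent
  rw [hF] at hle
  have hbot : ((Cfsg.pCoreOf p (MulAction.stabilizer G a ⊓ MulAction.stabilizer G b)).subgroupOf
        (MulAction.stabilizer G a)).map (MulAction.toPermHom (MulAction.stabilizer G a)
          (MulAction.orbit (MulAction.stabilizer G a) b)) = ⊥ := by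
    rw [eq_bot_iff]
    intro x hx
    have h1 := hle (show (⟨x, hR2le hx⟩ : ↥(((MulAction.stabilizer G b).subgroupOf
      (MulAction.stabilizer G a)).map (MulAction.toPermHom (MulAction.stabilizer G a)
        (MulAction.orbit (MulAction.stabilizer G a) b)))) ∈ _ from Subgroup.mem_subgroupOf.mpr hx)
    rw [Subgroup.mem_bot] at h1 ⊢
    exact congrArg Subtype.val h1
  have hker := (Subgroup.map_eq_bot_iff _).mp hbot
  intro x hx h hh
  have hxA : x ∈ MulAction.stabilizer G a := (hRle hx).1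
  refine ⟨Subgroup.mul_mem _ (Subgroup.mul_mem _ hh hxA) (Subgroup.inv_mem _ hh), ?_⟩
  have h1 : (⟨x, hxA⟩ : ↥(MulAction.stabilizer G a)) ∈ (MulAction.toPermHom
      (MulAction.stabilizer G a) (MulAction.orbit (MulAction.stabilizer G a) b)).ker :=
    hker (Subgroup.mem_subgroupOf.mpr hx)
  rw [MonoidHom.mem_ker] at h1
  have hpt : (⟨h, hh⟩⁻¹ : ↥(MulAction.stabilizer G a)) • b ∈
      MulAction.orbit (MulAction.stabilizer G a) b := MulAction.mem_orbit _ _
  have h3 : (⟨x, hxA⟩ : ↥(MulAction.stabilizer G a)) •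
      ((⟨h, hh⟩⁻¹ : ↥(MulAction.stabilizer G a)) • b) =
      (⟨h, hh⟩⁻¹ : ↥(MulAction.stabilizer G a)) • b := by
    have h4 := congrArg (fun σ : Equiv.Perm ↥(MulAction.orbit (MulAction.stabilizer G a) b) =>
      ((σ ⟨_, hpt⟩ : ↥(MulAction.orbit (MulAction.stabilizer G a) b)) : Ω)) h1
    exact h4
  have h5 : x • (h⁻¹ • b) = h⁻¹ • b := h3
  apply MulAction.mem_stabilizer_iff.mpr
  calc (h * x * h⁻¹) • b = h • (x • (h⁻¹ • b)) := by simp [smul_smul, mul_assoc]
    _ = h • (h⁻¹ • b) := by rw [h5]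
    _ = b := by simp

end Cfsg.Agent.Lib.Helper11.TW
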